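import Cfsg.Agent.H275.Heis
import Cfsg.Agent.H773.RvMat

/-!
# Elementary abelian groups of order `p^2` with a basis: the matrix of an automorphism (helper773)
-/

set_option autoImplicit false

namespace Cfsg.Agent.H773.Rv

open Subgroup Cfsg.Agent.H275.Heis

variable {B : Type*} [Group B] {p : ℕ} [hp : Fact p.Prime] {v z : B}

/-- `v`, `z` is a basis of the elementary abelian group `B`. -/
structure Bas (p : ℕ) [Fact p.Prime] (v z : B) : Prop where
  comm : Commute v z
  vp : v ^ p = 1
  zp : z ^ p = 1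
  ex : ∀ x : B, ∃ a k : ZMod p, x = pw v a * pw z k
  uni : ∀ a k : ZMod p, pw v a * pw z k = 1 → a = 0 ∧ k = 0

namespace Bas

variable (h : Bas p v z)
include h

omit h in
/-- The element with given coordinates. -/
def f (v z : B) (w : Fin 2 → ZMod p) : B := pw v (w 0) * pw z (w 1)

theorem f_add (w w' : Fin 2 → ZMod p) : f v z (w + w') = f v z w * f v z w' := by
  unfold f
  rw [Pi.add_apply, Pi.add_apply, pw_add h.vp, pw_add h.zp]
  have h1 : Commute (pw v (w' 0)) (pw z (w 1)) := pw_commute h.comm _ _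
  calc pw v (w 0) * pw v (w' 0) * (pw z (w 1) * pw z (w' 1))
      = pw v (w 0) * (pw v (w' 0) * pw z (w 1)) * pw z (w' 1) := by group
    _ = pw v (w 0) * (pw z (w 1) * pw v (w' 0)) * pw z (w' 1) := by rw [h1.eq]
    _ = _ := by group

omit h in
theorem f_zero : f v z (0 : Fin 2 → ZMod p) = 1 := by
  unfold f
  rw [Pi.zero_apply, Pi.zero_apply, pw_zero, pw_zero, mul_one]

theorem f_neg (w : Fin 2 → ZMod p) : f v z (-w) = (f v z w)⁻¹ := by
  have h1 := h.f_add w (-w)
  rw [add_neg_cancel, f_zero] at h1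
  exact (inv_eq_of_mul_eq_one_right h1.symm).symm

theorem f_inj {w w' : Fin 2 → ZMod p} (he : f v z w = f v z w') : w = w' := by
  have h1 : f v z (w - w') = 1 := by
    rw [sub_eq_add_neg, h.f_add, h.f_neg, he, mul_inv_cancel]
  obtain ⟨h2, h3⟩ := h.uni _ _ h1
  ext i
  fin_cases i
  · exact sub_eq_zero.1 h2
  · exact sub_eq_zero.1 h3

theorem f_surj (x : B) : ∃ w : Fin 2 → ZMod p, f v z w = x := by
  obtain ⟨a, k, rfl⟩ := h.ex x
  exact ⟨![a, k], by unfold f; simp⟩

/-- The coordinates of `x`. -/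
noncomputable def co (x : B) : Fin 2 → ZMod p := Classical.choose (h.f_surj x)

theorem f_co (x : B) : f v z (h.co x) = x := Classical.choose_spec (h.f_surj x)

theorem co_f (w : Fin 2 → ZMod p) : h.co (f v z w) = w := h.f_inj (h.f_co _)

theorem co_mul (x y : B) : h.co (x * y) = h.co x + h.co y := by
  apply h.f_inj
  rw [h.f_co, h.f_add, h.f_co, h.f_co]

theorem co_inj {x y : B} (he : h.co x = h.co y) : x = y := by
  rw [← h.f_co x, he, h.f_co]

theorem co_one : h.co 1 = 0 := by
  have := h.co_mul 1 1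
  rw [one_mul] at this
  exact left_eq_add.1 this

theorem co_pow (x : B) (n : ℕ) : h.co (x ^ n) = (n : ZMod p) • h.co x := by
  induction n with
  | zero => rw [pow_zero, h.co_one]; simp
  | succ n ih => rw [pow_succ, h.co_mul, ih]; push_cast; rw [add_smul, one_smul]

theorem co_pw (x : B) (a : ZMod p) : h.co (pw x a) = a • h.co x := by
  unfold pw
  rw [h.co_pow, ZMod.natCast_zmod_val]

theorem co_v : h.co v = ![1, 0] := by
  apply h.f_inj
  rw [h.f_co]
  unfold f
  simp [pw_one, pw_zero]

theorem co_z : h.co z = ![0, 1] := by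
  apply h.f_inj
  rw [h.f_co]
  unfold f
  simp [pw_one, pw_zero]

theorem mem_zpowers_iff' {x : B} : x ∈ zpowers z ↔ h.co x 0 = 0 := by
  constructor
  · intro hx
    obtain ⟨a, rfl⟩ := exists_pw_of_mem_zpowers h.zp hx
    rw [h.co_pw, h.co_z]
    simp
  · intro hx
    have h1 := h.f_co x
    unfold f at h1
    rw [hx, pw_zero, one_mul] at h1
    rw [← h1]
    exact pw_mem (mem_zpowers z) _

/-- The matrix of an automorphism. -/
noncomputable def mat (α : B →* B) : Matrix (Fin 2) (Fin 2) (ZMod p) :=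
  !![h.co (α v) 0, h.co (α z) 0; h.co (α v) 1, h.co (α z) 1]

theorem co_map (α : B →* B) (x : B) : h.co (α x) = Matrix.mulVec (h.mat α) (h.co x) := by
  have h1 := h.f_co x
  unfold f at h1
  conv_lhs => rw [← h1]
  rw [map_mul, map_pw, map_pw, h.co_mul, h.co_pw, h.co_pw]
  ext i
  fin_cases i <;> simp [mat, Matrix.mulVec, dotProduct, Fin.sum_univ_two, mul_comm]

theorem mulVec_ext {M N : Matrix (Fin 2) (Fin 2) (ZMod p)}
    (he : ∀ x : B, Matrix.mulVec M (h.co x) = Matrix.mulVec N (h.co x)) : M = N := by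
  have h0 := he v
  have h1 := he z
  rw [h.co_v] at h0
  rw [h.co_z] at h1
  ext i j
  fin_cases j
  · have := congrFun h0 i
    fin_cases i <;> simpa using this
  · have := congrFun h1 i
    fin_cases i <;> simpa using this

theorem mat_mul (α β : B →* B) : h.mat (α.comp β) = h.mat α * h.mat β := by
  apply h.mulVec_ext
  intro x
  rw [← h.co_map, ← Matrix.mulVec_mulVec, ← h.co_map, ← h.co_map]
  rfl

theorem mat_one : h.mat (MonoidHom.id B) = 1 := by
  apply h.mulVec_ext
  intro x
  rw [← h.co_map, Matrix.one_mulVec]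
  rfl

/-- The representation. -/
noncomputable def ro : MulAut B →* GL (Fin 2) (ZMod p) where
  toFun α := ⟨h.mat α.toMonoidHom, h.mat α⁻¹.toMonoidHom, by
      rw [← h.mat_mul, ← h.mat_one]
      congr 1
      ext x
      change α (α⁻¹ x) = x
      exact MulAut.apply_inv_self B α x, by
      rw [← h.mat_mul, ← h.mat_one]
      congr 1
      ext x
      change α⁻¹ (α x) = x
      exact MulAut.inv_apply_self B α x⟩
  map_one' := by
    apply Units.ext
    exact h.mat_one
  map_mul' α β := by
    apply Units.ext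
    change h.mat (α * β).toMonoidHom = h.mat α.toMonoidHom * h.mat β.toMonoidHom
    rw [← h.mat_mul]
    rfl

theorem co_ro (α : MulAut B) (x : B) :
    h.co (α x) = Matrix.mulVec (h.ro α : Matrix (Fin 2) (Fin 2) (ZMod p)) (h.co x) :=
  h.co_map α.toMonoidHom x

theorem ro_injective : Function.Injective h.ro := by
  intro α β he
  ext x
  apply h.co_inj
  rw [h.co_ro, h.co_ro, he]

theorem ro_surjective : Function.Surjective h.ro := by
  intro N
  set M : Matrix (Fin 2) (Fin 2) (ZMod p) := (N : Matrix (Fin 2) (Fin 2) (ZMod p)) with hM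
  set M' : Matrix (Fin 2) (Fin 2) (ZMod p) := ((N⁻¹ : GL (Fin 2) (ZMod p)) : Matrix (Fin 2) (Fin 2) (ZMod p)) with hM'
  have h1 : M * M' = 1 := Units.mul_inv N
  have h2 : M' * M = 1 := Units.inv_mul N
  let α : MulAut B :=
    { toFun := fun x => f v z (Matrix.mulVec M (h.co x))
      invFun := fun x => f v z (Matrix.mulVec M' (h.co x))
      left_inv := by
        intro x
        change f v z (Matrix.mulVec M' (h.co (f v z (Matrix.mulVec M (h.co x))))) = x
        rw [h.co_f, Matrix.mulVec_mulVec, h2, Matrix.one_mulVec, h.f_co]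
      right_inv := by
        intro x
        change f v z (Matrix.mulVec M (h.co (f v z (Matrix.mulVec M' (h.co x))))) = x
        rw [h.co_f, Matrix.mulVec_mulVec, h1, Matrix.one_mulVec, h.f_co]
      map_mul' := by
        intro x y
        change f v z (Matrix.mulVec M (h.co (x * y))) = _
        rw [h.co_mul, Matrix.mulVec_add, h.f_add] }
  refine ⟨α, ?_⟩
  apply Units.ext
  apply h.mulVec_ext
  intro x
  rw [← h.co_ro]
  change h.co (f v z (Matrix.mulVec M (h.co x))) = _
  rw [h.co_f]

theorem ro_apply_z (α : MulAut B) : h.co (α z) =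
    ![(h.ro α : Matrix (Fin 2) (Fin 2) (ZMod p)) 0 1, (h.ro α : Matrix (Fin 2) (Fin 2) (ZMod p)) 1 1] := by
  rw [h.co_ro, h.co_z]
  ext i
  fin_cases i <;> simp

theorem ro_apply_v (α : MulAut B) : h.co (α v) =
    ![(h.ro α : Matrix (Fin 2) (Fin 2) (ZMod p)) 0 0, (h.ro α : Matrix (Fin 2) (Fin 2) (ZMod p)) 1 0] := by
  rw [h.co_ro, h.co_v]
  ext i
  fin_cases i <;> simp

end Bas

end Cfsg.Agent.H773.Rv
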